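import Cfsg.Agent.H120.Sys

/-!
# Quadratic forms polarising to a given symplectic form of dimension 6 (helper808)

`F` a finite field of characteristic 2, `ψ` a nontrivial additive character. A nonempty set of
`((a₁, b₁), (a₂, b₂), (a₃, b₃))` closed under the affine transvections contains at least `(q ^ 6 - q ^ 3) / 2` elements.
-/

set_option autoImplicit false
set_option linter.unusedSectionVars false

namespace Cfsg.Agent.H808.MD.Quad

open Finset

variable {F : Type*} [Field F] [CharP F 2]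

theorem val (ψ : AddChar F ℂ) (x : F) : ψ x = 1 ∨ ψ x = -1 := by
  have h : ψ x * ψ x = 1 := by
    rw [← AddChar.map_add_eq_mul, CharTwo.add_self_eq_zero, AddChar.map_zero_eq_one]
  exact mul_self_eq_one_iff.1 h

theorem exists_neg {ψ : AddChar F ℂ} (hψ : ψ ≠ 0) : ∃ x, ψ x = -1 := by
  by_contra hc
  push Not at hc
  apply hψ
  ext x
  rcases val ψ x with h | h
  · rw [h, AddChar.zero_apply]
  · exact absurd h (hc x)

variable [Fintype F]

theorem exists_gamma {ψ : AddChar F ℂ} (hψ : ψ ≠ 0) : ∃ γ : F, γ ≠ 0 ∧ ∀ t, ψ (t ^ 2) = ψ (γ * t) := by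
  let χ : AddChar F ℂ := ψ.compAddMonoidHom (frobenius F 2).toAddMonoidHom
  obtain ⟨d, hd⟩ := Cfsg.Agent.H120.exists_mulShift hψ χ
  have h1 : ∀ t, ψ (t ^ 2) = ψ (d * t) := fun t => by
    have h := congrArg (fun f : AddChar F ℂ => f t) hd
    simp only [AddChar.mulShift_apply] at h
    rw [h]
    rfl
  refine ⟨d, ?_, h1⟩
  rintro rfl
  obtain ⟨x, hx⟩ := exists_neg hψ
  obtain ⟨y, rfl⟩ := ((Finite.injective_iff_surjective (α := F)).1 (frobenius_inj F 2)) x
  have h2 := h1 y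
  rw [zero_mul, AddChar.map_zero_eq_one] at h2
  rw [frobenius_def, h2] at hx
  norm_num at hx

variable {ψ : AddChar F ℂ} {γ : F}

/-- the transvections move the first coordinate -/
theorem pairA (hψ : ψ ≠ 0) (hγ0 : γ ≠ 0) (hγ : ∀ t, ψ (t ^ 2) = ψ (γ * t)) {a a' b : F} (hb : b ≠ 0)
    (h : ψ (a * b) = ψ (a' * b)) : ∃ d, a' = a + b * d ^ 2 + γ * d := by
  classical
  let L : F →+ F :=
    { toFun := fun d => b * d ^ 2 + γ * d
      map_zero' := by ring
      map_add' := fun x y => by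
        have : (x + y) ^ 2 = x ^ 2 + y ^ 2 := CharTwo.add_sq x y
        rw [this]; ring }
  let K : AddSubgroup F :=
    { carrier := {y | ψ (y * b) = 1}
      zero_mem' := by simp
      add_mem' := fun {x y} hx hy => by
        show ψ ((x + y) * b) = 1
        rw [add_mul, AddChar.map_add_eq_mul, show ψ (x * b) = 1 from hx, show ψ (y * b) = 1 from hy, one_mul]
      neg_mem' := fun {x} hx => by
        show ψ (-x * b) = 1
        rw [CharTwo.neg_eq]
        exact hx }
  have hle : L.range ≤ K := by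
    rintro _ ⟨d, rfl⟩
    show ψ ((b * d ^ 2 + γ * d) * b) = 1
    have e1 : (b * d ^ 2 + γ * d) * b = (b * d) ^ 2 + γ * (b * d) := by ring
    rw [e1, AddChar.map_add_eq_mul, hγ, ← AddChar.map_add_eq_mul, CharTwo.add_self_eq_zero, AddChar.map_zero_eq_one]
  have hK : K ≠ ⊤ := by
    intro hK
    obtain ⟨x, hx⟩ := exists_neg hψ
    have h1 : x / b ∈ K := by rw [hK]; exact AddSubgroup.mem_top _
    have h2 : ψ (x / b * b) = 1 := h1
    rw [div_mul_cancel₀ _ hb, hx] at h2
    norm_num at h2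
  have hker : Nat.card L.ker ≤ 2 := by
    have h1 : (L.ker : Set F) ⊆ ({0, γ / b} : Finset F) := by
      intro d hd
      have h2 : b * d ^ 2 + γ * d = 0 := hd
      have h3 : d * (b * d + γ) = 0 := by rw [← h2]; ring
      simp only [Finset.coe_insert, Finset.coe_singleton, Set.mem_insert_iff, Set.mem_singleton_iff]
      rcases mul_eq_zero.1 h3 with h4 | h4
      · exact Or.inl h4
      · right
        rw [eq_div_iff hb, mul_comm d b, ← sub_eq_zero, CharTwo.sub_eq_add, h4]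
    have h2 : Nat.card L.ker ≤ Nat.card (({0, γ / b} : Finset F) : Set F) := Nat.card_mono (Set.toFinite _) h1
    refine h2.trans ?_
    rw [Nat.card_coe_set_eq, Set.ncard_coe_finset]
    exact Finset.card_le_two
  have hcard : Nat.card L.ker * Nat.card L.range = Nat.card F := by
    rw [← AddSubgroup.index_ker, AddSubgroup.card_mul_index]
  have hcard2 : Nat.card K * K.index = Nat.card F := AddSubgroup.card_mul_index K
  have hidx : 2 ≤ K.index := by
    have h1 : K.index ≠ 1 := fun h => hK (AddSubgroup.index_eq_one.1 h)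
    have h2 : K.index ≠ 0 := AddSubgroup.index_ne_zero_of_finite
    omega
  have hge : Nat.card K ≤ Nat.card L.range := by
    have h1 : Nat.card K * 2 ≤ Nat.card F := by rw [← hcard2]; exact Nat.mul_le_mul_left _ hidx
    have h2 : Nat.card F ≤ 2 * Nat.card L.range := by rw [← hcard]; exact Nat.mul_le_mul_right _ hker
    omega
  have heq : L.range = K := AddSubgroup.eq_of_le_of_card_ge hle hge
  have hmem : a + a' ∈ K := by
    show ψ ((a + a') * b) = 1
    rw [add_mul, AddChar.map_add_eq_mul, h, ← AddChar.map_add_eq_mul, CharTwo.add_self_eq_zero,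
      AddChar.map_zero_eq_one]
  rw [← heq] at hmem
  obtain ⟨d, hd⟩ := hmem
  have hd' : b * d ^ 2 + γ * d = a + a' := hd
  refine ⟨d, ?_⟩
  rw [add_assoc, hd', ← add_assoc, CharTwo.add_self_eq_zero, zero_add]

/-- both characters take the value `-1` -/
theorem exists_both (hψ : ψ ≠ 0) {b b' : F} (hb : b ≠ 0) (hb' : b' ≠ 0) (h : b ≠ b') :
    ∃ a, ψ (a * b) = -1 ∧ ψ (a * b') = -1 := by
  classical
  by_contra hc
  push Not at hc
  have hp : ψ.IsPrimitive := AddChar.IsPrimitive.of_ne_one hψ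
  have hs : ∀ c : F, c ≠ 0 → ∑ x, ψ (x * c) = 0 := fun c hc => by rw [AddChar.sum_mulShift c hp, if_neg hc, Nat.cast_zero]
  have h0 : ∑ x : F, (1 - ψ (x * b)) * (1 - ψ (x * b')) = 0 := by
    refine Finset.sum_eq_zero fun x _ => ?_
    rcases val ψ (x * b) with h1 | h1
    · rw [h1, sub_self, zero_mul]
    · rcases val ψ (x * b') with h2 | h2
      · rw [h2, sub_self, mul_zero]
      · exact absurd h2 (hc x h1)
  have h1 : ∀ x : F, (1 - ψ (x * b)) * (1 - ψ (x * b')) = 1 - ψ (x * b) - ψ (x * b') + ψ (x * (b + b')) := by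
    intro x
    rw [mul_add, AddChar.map_add_eq_mul]
    ring
  rw [Finset.sum_congr rfl (fun x _ => h1 x), Finset.sum_add_distrib, Finset.sum_sub_distrib, Finset.sum_sub_distrib,
    hs b hb, hs b' hb', hs (b + b') (fun h2 => h (by rwa [← CharTwo.sub_eq_add, sub_eq_zero] at h2)), Finset.sum_const,
    Finset.card_univ, sub_zero, sub_zero, add_zero, nsmul_eq_mul, mul_one] at h0
  exact (Nat.cast_ne_zero.2 (Fintype.card_ne_zero (α := F))) h0

/-- `SL₂` is transitive on the pairs with a given value -/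
theorem pair (hψ : ψ ≠ 0) (hγ0 : γ ≠ 0) (hγ : ∀ t, ψ (t ^ 2) = ψ (γ * t)) {S : F × F → Prop}
    (hp : ∀ a b d, S (a, b) → S (a + b * d ^ 2 + γ * d, b)) (hm : ∀ a b d, S (a, b) → S (a, b + a * d ^ 2 + γ * d))
    {p p' : F × F} (hS : S p) (h : ψ (p.1 * p.2) = ψ (p'.1 * p'.2)) : S p' := by
  have A : ∀ a a' b, S (a, b) → ψ (a * b) = ψ (a' * b) → S (a', b) := by
    intro a a' b h1 h2
    by_cases hb : b = 0
    · subst hb
      have h3 := hp a 0 ((a + a') / γ) h1
      rw [zero_mul, add_zero, mul_div_cancel₀ _ hγ0, ← add_assoc, CharTwo.add_self_eq_zero, zero_add] at h3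
      exact h3
    · obtain ⟨d, rfl⟩ := pairA hψ hγ0 hγ hb h2
      exact hp a b d h1
  have B : ∀ a b b', S (a, b) → ψ (a * b) = ψ (a * b') → S (a, b') := by
    intro a b b' h1 h2
    by_cases ha : a = 0
    · subst ha
      have h3 := hm 0 b ((b + b') / γ) h1
      rw [zero_mul, add_zero, mul_div_cancel₀ _ hγ0, ← add_assoc, CharTwo.add_self_eq_zero, zero_add] at h3
      exact h3
    · obtain ⟨d, rfl⟩ := pairA hψ hγ0 hγ ha (by rwa [mul_comm b, mul_comm b'] : ψ (b * a) = ψ (b' * a))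
      exact hm a b d h1
  obtain ⟨a, b⟩ := p
  obtain ⟨a', b'⟩ := p'
  change ψ (a * b) = ψ (a' * b') at h
  rcases val ψ (a * b) with h1 | h1
  · have s1 := A a 0 b hS (by rw [h1, zero_mul, AddChar.map_zero_eq_one])
    have s2 := B 0 b b' s1 (by rw [zero_mul, zero_mul])
    exact A 0 a' b' s2 (by rw [← h, h1, zero_mul, AddChar.map_zero_eq_one])
  · by_cases hbb : b = b'
    · subst hbb
      exact A a a' b hS h
    · have hb : b ≠ 0 := by
        rintro rfl
        rw [mul_zero, AddChar.map_zero_eq_one] at h1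
        norm_num at h1
      have hb' : b' ≠ 0 := by
        rintro rfl
        rw [mul_zero, AddChar.map_zero_eq_one, h1] at h
        norm_num at h
      obtain ⟨c, hc, hc'⟩ := exists_both hψ hb hb' hbb
      have s1 := A a c b hS (by rw [h1, hc])
      have s2 := B c b b' s1 (by rw [hc, hc'])
      exact A c a' b' s2 (by rw [hc', ← h, h1])

/-- triples of pairs -/
abbrev P (F : Type*) := (F × F) × (F × F) × (F × F)

/-- the value -/
def B3 (p : P F) : F := p.1.1 * p.1.2 + (p.2.1.1 * p.2.1.2 + p.2.2.1 * p.2.2.2)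

/-- closed under the affine transvections -/
structure Closed (γ : F) (S : P F → Prop) : Prop where
  p1 : ∀ a b y z d, S ((a, b), y, z) → S ((a + b * d ^ 2 + γ * d, b), y, z)
  m1 : ∀ a b y z d, S ((a, b), y, z) → S ((a, b + a * d ^ 2 + γ * d), y, z)
  p2 : ∀ a b x z d, S (x, (a, b), z) → S (x, (a + b * d ^ 2 + γ * d, b), z)
  m2 : ∀ a b x z d, S (x, (a, b), z) → S (x, (a, b + a * d ^ 2 + γ * d), z)
  p3 : ∀ a b x y d, S (x, y, (a, b)) → S (x, y, (a + b * d ^ 2 + γ * d, b))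
  m3 : ∀ a b x y d, S (x, y, (a, b)) → S (x, y, (a, b + a * d ^ 2 + γ * d))
  r12 : ∀ a b a' b' z c, S ((a, b), (a', b'), z) → S ((a + b' * c, b), (a' + b * c, b'), z)
  r23 : ∀ a b a' b' x c, S (x, (a, b), (a', b')) → S (x, (a + b' * c, b), (a' + b * c, b'))

/-- a point with the second coordinate `1` -/
theorem exists_pt (hψ : ψ ≠ 0) {e : ℂ} (he : e = 1 ∨ e = -1) : ∃ x, ψ x = e := by
  rcases he with rfl | rfl
  · exact ⟨0, AddChar.map_zero_eq_one ψ⟩
  · exact exists_neg hψ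

/-- the flip of two pairs -/
theorem flip (hψ : ψ ≠ 0) (hγ0 : γ ≠ 0) (hγ : ∀ t, ψ (t ^ 2) = ψ (γ * t)) {S : F × F → F × F → Prop}
    (p1 : ∀ a b y d, S (a, b) y → S (a + b * d ^ 2 + γ * d, b) y)
    (m1 : ∀ a b y d, S (a, b) y → S (a, b + a * d ^ 2 + γ * d) y)
    (p2 : ∀ a b x d, S x (a, b) → S x (a + b * d ^ 2 + γ * d, b))
    (m2 : ∀ a b x d, S x (a, b) → S x (a, b + a * d ^ 2 + γ * d))
    (r : ∀ a b a' b' c, S (a, b) (a', b') → S (a + b' * c, b) (a' + b * c, b'))
    {x y x' y' : F × F} (hS : S x y)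
    (h : ψ (x.1 * x.2) * ψ (y.1 * y.2) = ψ (x'.1 * x'.2) * ψ (y'.1 * y'.2)) : S x' y' := by
  have X1 : ∀ x x' y, S x y → ψ (x.1 * x.2) = ψ (x'.1 * x'.2) → S x' y := fun x x' y h1 h2 =>
    pair hψ hγ0 hγ (S := fun x => S x y) (fun a b d => p1 a b y d) (fun a b d => m1 a b y d) h1 h2
  have X2 : ∀ x y y', S x y → ψ (y.1 * y.2) = ψ (y'.1 * y'.2) → S x y' := fun x y y' h1 h2 =>
    pair hψ hγ0 hγ (S := fun y => S x y) (fun a b d => p2 a b x d) (fun a b d => m2 a b x d) h1 h2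
  by_cases h1 : ψ (x.1 * x.2) = ψ (x'.1 * x'.2)
  · have h2 : ψ (y.1 * y.2) = ψ (y'.1 * y'.2) := by
      rw [h1] at h
      refine mul_left_cancel₀ ?_ h
      rcases val ψ (x'.1 * x'.2) with h3 | h3 <;> rw [h3] <;> norm_num
    exact X2 _ _ _ (X1 _ _ _ hS h1) h2
  · obtain ⟨α, hα⟩ := exists_pt hψ (val ψ (x.1 * x.2))
    obtain ⟨β, hβ⟩ := exists_pt hψ (val ψ (y.1 * y.2))
    obtain ⟨c, hc⟩ := exists_neg hψ
    have s1 := X1 _ (α, 1) _ hS (by simp only [mul_one]; exact hα.symm)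
    have s2 := X2 _ _ (β, 1) s1 (by simp only [mul_one]; exact hβ.symm)
    have s3 := r _ _ _ _ c s2
    have e1 : ψ (x'.1 * x'.2) = - ψ (x.1 * x.2) := by
      rcases val ψ (x.1 * x.2) with h3 | h3 <;> rcases val ψ (x'.1 * x'.2) with h4 | h4 <;> rw [h3, h4] at h1 ⊢
      · exact absurd rfl h1
      · rw [neg_neg]
      · exact absurd rfl h1
    have e2 : ψ (y'.1 * y'.2) = - ψ (y.1 * y.2) := by
      rw [e1] at h
      have h5 : ψ (x.1 * x.2) ≠ 0 := by
        rcases val ψ (x.1 * x.2) with h3 | h3 <;> rw [h3] <;> norm_num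
      have h6 : ψ (x.1 * x.2) * ψ (y.1 * y.2) = ψ (x.1 * x.2) * (- ψ (y'.1 * y'.2)) := by rw [h]; ring
      rw [mul_left_cancel₀ h5 h6, neg_neg]
    have s4 := X1 _ x' _ s3 (by
      simp only [mul_one, one_mul]
      rw [AddChar.map_add_eq_mul, hα, hc, e1]; ring)
    exact X2 _ _ y' s4 (by
      simp only [mul_one, one_mul]
      rw [AddChar.map_add_eq_mul, hβ, hc, e2]; ring)

/-- a nonempty closed set contains all points of one value -/
theorem orbit (hψ : ψ ≠ 0) (hγ0 : γ ≠ 0) (hγ : ∀ t, ψ (t ^ 2) = ψ (γ * t)) {S : P F → Prop} (H : Closed γ S)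
    {p : P F} (hp : S p) (p' : P F) (h : ψ (B3 p') = ψ (B3 p)) : S p' := by
  obtain ⟨x, y, z⟩ := p
  obtain ⟨x', y', z'⟩ := p'
  simp only [B3, AddChar.map_add_eq_mul] at h
  have hv : ψ (x.1 * x.2) * ψ (y.1 * y.2) * ψ (x'.1 * x'.2) = 1 ∨
      ψ (x.1 * x.2) * ψ (y.1 * y.2) * ψ (x'.1 * x'.2) = -1 := by
    rw [← AddChar.map_add_eq_mul, ← AddChar.map_add_eq_mul]
    exact val ψ _
  obtain ⟨α, hα⟩ := exists_pt hψ hv
  have hx' : ψ (x'.1 * x'.2) * ψ (x'.1 * x'.2) = 1 := by
    rcases val ψ (x'.1 * x'.2) with h3 | h3 <;> rw [h3] <;> norm_num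
  have s1 : S (x', (α, 1), z) := by
    refine flip hψ hγ0 hγ (S := fun x y => S (x, y, z)) (fun a b y d => H.p1 a b y z d) (fun a b y d => H.m1 a b y z d)
      (fun a b x d => H.p2 a b x z d) (fun a b x d => H.m2 a b x z d) (fun a b a' b' c => H.r12 a b a' b' z c) hp ?_
    simp only [mul_one]
    rw [hα]
    calc ψ (x.1 * x.2) * ψ (y.1 * y.2) = (ψ (x'.1 * x'.2) * ψ (x'.1 * x'.2)) * (ψ (x.1 * x.2) * ψ (y.1 * y.2)) := by
          rw [hx', one_mul]
      _ = _ := by ring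
  refine flip hψ hγ0 hγ (S := fun y z => S (x', y, z)) (fun a b z d => H.p2 a b x' z d) (fun a b z d => H.m2 a b x' z d)
    (fun a b y d => H.p3 a b x' y d) (fun a b y d => H.m3 a b x' y d) (fun a b a' b' c => H.r23 a b a' b' x' c) s1 ?_
  simp only [mul_one]
  rw [hα]
  calc ψ (x.1 * x.2) * ψ (y.1 * y.2) * ψ (x'.1 * x'.2) * ψ (z.1 * z.2)
      = ψ (x'.1 * x'.2) * (ψ (x.1 * x.2) * (ψ (y.1 * y.2) * ψ (z.1 * z.2))) := by ring
    _ = ψ (x'.1 * x'.2) * (ψ (x'.1 * x'.2) * (ψ (y'.1 * y'.2) * ψ (z'.1 * z'.2))) := by rw [← h]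
    _ = (ψ (x'.1 * x'.2) * ψ (x'.1 * x'.2)) * (ψ (y'.1 * y'.2) * ψ (z'.1 * z'.2)) := by ring
    _ = _ := by rw [hx', one_mul]

theorem sum_pair (hψ : ψ ≠ 0) : ∑ p : F × F, ψ (p.1 * p.2) = Fintype.card F := by
  classical
  have hp : ψ.IsPrimitive := AddChar.IsPrimitive.of_ne_one hψ
  rw [Fintype.sum_prod_type_right]
  rw [Finset.sum_congr rfl (fun y _ => AddChar.sum_mulShift (R := F) y hp)]
  simp

theorem sum_B3 (hψ : ψ ≠ 0) : ∑ p : P F, ψ (B3 p) = (Fintype.card F : ℂ) ^ 3 := by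
  rw [Fintype.sum_prod_type]
  have h1 : ∀ x : F × F, ∑ y : (F × F) × (F × F), ψ (B3 (x, y)) = ψ (x.1 * x.2) * ((Fintype.card F : ℂ) * Fintype.card F) := by
    intro x
    rw [Fintype.sum_prod_type]
    have h2 : ∀ y : F × F, ∑ z : F × F, ψ (B3 (x, y, z)) = ψ (x.1 * x.2) * (ψ (y.1 * y.2) * Fintype.card F) := by
      intro y
      rw [← sum_pair hψ, Finset.mul_sum, Finset.mul_sum]
      refine Finset.sum_congr rfl fun z _ => ?_
      simp only [B3, AddChar.map_add_eq_mul]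
    rw [Finset.sum_congr rfl (fun y _ => h2 y), ← Finset.mul_sum, ← Finset.sum_mul, sum_pair hψ]
  rw [Finset.sum_congr rfl (fun x _ => h1 x), ← Finset.sum_mul, sum_pair hψ]
  ring

open scoped Classical in
/-- the number of points with a given value -/
theorem count (hψ : ψ ≠ 0) {e : ℂ} (he : e = 1 ∨ e = -1) :
    Fintype.card F ^ 6 ≤ 2 * (univ.filter fun p : P F => ψ (B3 p) = e).card + Fintype.card F ^ 3 := by
  have h1 : ∑ p : P F, (1 + e * ψ (B3 p)) = 2 * ((univ.filter fun p : P F => ψ (B3 p) = e).card : ℂ) := by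
    rw [← Finset.sum_filter_add_sum_filter_not univ (fun p : P F => ψ (B3 p) = e)]
    have h2 : ∑ p ∈ univ.filter (fun p : P F => ψ (B3 p) = e), (1 + e * ψ (B3 p)) =
        2 * ((univ.filter fun p : P F => ψ (B3 p) = e).card : ℂ) := by
      rw [Finset.sum_congr rfl (g := fun _ => (2 : ℂ)), Finset.sum_const, nsmul_eq_mul, mul_comm]
      intro p hp
      rw [(Finset.mem_filter.1 hp).2]
      rcases he with rfl | rfl <;> norm_num
    have h3 : ∑ p ∈ univ.filter (fun p : P F => ¬ ψ (B3 p) = e), (1 + e * ψ (B3 p)) = 0 := by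
      refine Finset.sum_eq_zero fun p hp => ?_
      have h4 := (Finset.mem_filter.1 hp).2
      rcases val ψ (B3 p) with h5 | h5 <;> rcases he with rfl | rfl <;> rw [h5] at h4 ⊢
      · exact absurd rfl h4
      · norm_num
      · norm_num
      · exact absurd rfl h4
    rw [h2, h3, add_zero]
  have hcard : Fintype.card (P F) = Fintype.card F ^ 6 := by
    simp only [Fintype.card_prod]
    ring
  rw [Finset.sum_add_distrib, ← Finset.mul_sum, sum_B3 hψ, Finset.sum_const, Finset.card_univ, hcard, nsmul_eq_mul,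
    mul_one] at h1
  rcases he with rfl | rfl
  · have h2 : ((Fintype.card F ^ 6 + Fintype.card F ^ 3 : ℕ) : ℂ) =
        ((2 * (univ.filter fun p : P F => ψ (B3 p) = 1).card : ℕ) : ℂ) := by
      push_cast
      rw [← h1]
      push_cast
      ring
    have h3 := Nat.cast_injective h2
    omega
  · have h2 : ((Fintype.card F ^ 6 : ℕ) : ℂ) =
        ((2 * (univ.filter fun p : P F => ψ (B3 p) = -1).card + Fintype.card F ^ 3 : ℕ) : ℂ) := by
      push_cast
      rw [← h1]
      push_cast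
      ring
    have h3 := Nat.cast_injective h2
    omega

open scoped Classical in
/-- **the count** -/
theorem card_closed (hψ : ψ ≠ 0) (hγ0 : γ ≠ 0) (hγ : ∀ t, ψ (t ^ 2) = ψ (γ * t)) {S : P F → Prop} (H : Closed γ S)
    {p : P F} (hp : S p) : Fintype.card F ^ 6 ≤ 2 * (univ.filter S).card + Fintype.card F ^ 3 := by
  refine (count hψ (val ψ (B3 p))).trans ?_
  have h1 : (univ.filter fun p' : P F => ψ (B3 p') = ψ (B3 p)) ⊆ univ.filter S := by
    intro p' hp'
    rw [Finset.mem_filter] at hp' ⊢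
    exact ⟨Finset.mem_univ _, orbit hψ hγ0 hγ H hp p' hp'.2⟩
  have h2 := Finset.card_le_card h1
  omega

end Cfsg.Agent.H808.MD.Quad
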