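import Cfsg.Agent.H267.ConjF4.Deg
import Cfsg.Agent.H808.MD.Quad
import Cfsg.Agent.H514.DP.Core

/-!
# The degrees of `F₄(q)` (helper808)

`W` the weight space of a nontrivial character `ψ` of the highest long root group `X₄₇`. In characteristic 2 the
six short root groups of `Q` commute, the set of their characters on `W` is closed under the affine transvections
of `Quad.lean`, so `q ^ 7 (q ^ 3 - 1) / 2 ≤ dim W`.
-/

set_option autoImplicit false
set_option linter.unusedSectionVars false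

namespace Cfsg.Agent.H808.MD.F4

open Module Cfsg Cfsg.Lie Cfsg.Agent.ChevalleyStructure.Elts Cfsg.Agent.TitsThree.KExcBase Cfsg.Agent.H120
  Cfsg.Agent.H741.Pd Cfsg.Agent.H122 Cfsg.Agent.H267.ConjF4 Cfsg.Agent.H808.MD.Quad

universe u

variable {F : Type u} [Field F]

/-- a word as an element of the group -/
noncomputable def wG (w : List (ℕ × F)) : ↥(chevF4.group F) := (w.map fun c => X c.1 c.2).prod

theorem coe_wG (w : List (ℕ × F)) : ((wG w).1 : GL chevF4.Idx F).val = chevF4.wordMat F w := by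
  induction w with
  | nil => simp [wG, wordMat_nil]
  | cons c w ih =>
    rw [wordMat_cons, ← ih]
    show ((X c.1 c.2 * wG w).1 : GL chevF4.Idx F).val = _
    rw [Subgroup.coe_mul, Units.val_mul]
    congr 1

theorem rel {r s : ℕ} (hr : r < chevF4.nroots) (hs : s < chevF4.nroots) (hrs : s ≠ r) (hneg : s ≠ chevF4.neg r) (t u : F) :
    X s u * X r t = X r t * X s u * wG (chevF4.commWord F r s t u) := by
  have h1 := Cfsg.Agent.S1025.result (F := F) chevF4 hF4 r s hr hs hrs hneg t u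
  apply Subtype.ext
  apply Units.ext
  rw [Subgroup.coe_mul, Subgroup.coe_mul, Subgroup.coe_mul, Units.val_mul, Units.val_mul, Units.val_mul, coe_wG]
  show (xG hF4 s u).val * (xG hF4 r t).val = (xG hF4 r t).val * (xG hF4 s u).val * _
  rw [coe_xG, coe_xG, h1]

/-- the roots of the centre of `Q` -/
def Z : List ℕ := [47, 29, 44, 40, 36, 39, 38]

theorem X_even [CharP F 2] {N : ℤ} (h : 2 ∣ N) (r : ℕ) (a b : F) : X r ((N : F) * a * b) = 1 := by
  have h1 : (N : F) = 0 := (CharP.intCast_eq_zero_iff F 2 N).2 (by exact_mod_cast h)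
  rw [h1, zero_mul, zero_mul, X_zero]

theorem comm_even [CharP F 2] {r s : ℕ} (hr : r < chevF4.nroots) (hs : s < chevF4.nroots) (hrs : s ≠ r)
    (hneg : s ≠ chevF4.neg r) (h : ∀ c ∈ chevF4.commTerms r s, 2 ∣ c.2.1) (t u : F) :
    X r t * X s u = X s u * X r t := by
  rw [rel hr hs hrs hneg t u]
  have h1 : wG (chevF4.commWord F r s t u) = 1 := by
    refine List.prod_eq_one fun g hg => ?_
    rw [List.mem_map] at hg
    obtain ⟨c, hc, rfl⟩ := hg
    obtain ⟨d, hd, rfl⟩ := List.mem_map.1 hc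
    exact X_even (h d hd) _ _ _
  rw [h1, mul_one]

theorem chkZ : ∀ r ∈ Z, ∀ s ∈ Z, s ≠ r → r < chevF4.nroots ∧ s < chevF4.nroots ∧ s ≠ chevF4.neg r ∧
    ∀ c ∈ chevF4.commTerms r s, 2 ∣ c.2.1 := by decide +kernel

theorem commZ [CharP F 2] {r s : ℕ} (hr : r ∈ Z) (hs : s ∈ Z) (t u : F) : X r t * X s u = X s u * X r t := by
  by_cases h : s = r
  · subst h
    rw [← X_add, ← X_add, add_comm]
  · obtain ⟨h1, h2, h3, h4⟩ := chkZ r hr s hs h
    exact comm_even h1 h2 h h3 h4 t u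

theorem chkL : ∀ r ∈ L8, ∀ s ∈ Z, ChevHeis.nil chevF4 s r = true := by decide +kernel

/-- the moves -/
def Mv (l : ℕ) : Prop := l < chevF4.nroots ∧ ∀ k ∈ Z, k < chevF4.nroots ∧ l ≠ k ∧ l ≠ chevF4.neg k ∧
  ∀ c ∈ chevF4.commTerms k l, c.1 ∈ Z ∨ 2 ∣ c.2.1

instance instDecMv (l : ℕ) : Decidable (Mv l) := by unfold Mv; infer_instance

/-- the weight of the root `k` at the point `p` -/
def wv (p : P F) (k : ℕ) : F :=
  if k = 47 then 1 else if k = 29 then p.1.1 else if k = 44 then p.1.2 else if k = 40 then p.2.1.1 else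
  if k = 36 then p.2.1.2 else if k = 39 then p.2.2.1 else p.2.2.2

section rep

variable {V : Type*} [AddCommGroup V] [Module ℂ V] (ρ : Representation ℂ ↥(chevF4.group F) V) (ψ : AddChar F ℂ)

/-- the weight spaces -/
def U (p : P F) : Submodule ℂ V where
  carrier := {v | ∀ k ∈ Z, ∀ t, ρ (X k t) v = ψ (wv p k * t) • v}
  zero_mem' := fun k _ t => by rw [map_zero, smul_zero]
  add_mem' := fun {v w} hv hw k hk t => by rw [map_add, hv k hk t, hw k hk t, smul_add]
  smul_mem' := fun c v hv k hk t => by rw [map_smul, hv k hk t, smul_comm]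

variable {ρ ψ}

theorem mem_U {p : P F} {v : V} : v ∈ U ρ ψ p ↔ ∀ k ∈ Z, ∀ t, ρ (X k t) v = ψ (wv p k * t) • v := Iff.rfl

theorem wG_app (α : ℕ → F) {v : V} (w : List (ℕ × F)) (h : ∀ c ∈ w, ρ (X c.1 c.2) v = ψ (α c.1 * c.2) • v) :
    ρ (wG w) v = ψ ((w.map fun c => α c.1 * c.2).sum) • v := by
  induction w with
  | nil =>
    show ρ 1 v = ψ 0 • v
    rw [map_one, AddChar.map_zero_eq_one, one_smul]; rfl
  | cons c w ih =>
    show ρ (X c.1 c.2 * wG w) v = _
    rw [map_mul, Module.End.mul_apply, ih (fun d hd => h d (List.mem_cons_of_mem _ hd)), map_smul,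
      h c List.mem_cons_self, smul_smul, List.map_cons, List.sum_cons, AddChar.map_add_eq_mul, mul_comm]

variable [CharP F 2]

theorem move {l : ℕ} (hl : Mv l) (u : F) {p p' : P F}
    (h : ∀ k ∈ Z, ∀ t, ψ (wv p' k * t) = ψ (wv p k * t + ((chevF4.commWord F k l t u).map fun c => wv p c.1 * c.2).sum))
    {v : V} (hv : v ∈ U ρ ψ p) : ρ (X l u) v ∈ U ρ ψ p' := by
  intro k hk t
  obtain ⟨h1, h2, h3, h4⟩ := hl.2 k hk
  have hr := rel h1 hl.1 h2 h3 t u
  have h5 : ρ (wG (chevF4.commWord F k l t u)) v =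
      ψ (((chevF4.commWord F k l t u).map fun c => wv p c.1 * c.2).sum) • v := by
    refine wG_app (wv p) _ fun c hc => ?_
    obtain ⟨d, hd, rfl⟩ := List.mem_map.1 hc
    rcases h4 d hd with h6 | h6
    · exact hv _ h6 _
    · have h7 : (d.2.1 : F) = 0 := (CharP.intCast_eq_zero_iff F 2 d.2.1).2 (by exact_mod_cast h6)
      show ρ (X d.1 ((d.2.1 : F) * (-t) ^ d.2.2.1 * u ^ d.2.2.2)) v = ψ (wv p d.1 * ((d.2.1 : F) * (-t) ^ d.2.2.1 * u ^ d.2.2.2)) • v
      rw [h7, zero_mul, zero_mul, X_zero, map_one, mul_zero, AddChar.map_zero_eq_one, one_smul]; rfl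
  set c := ((chevF4.commWord F k l t u).map fun c => wv p c.1 * c.2).sum with hc
  have h6 : ρ (X l u) (ρ (X k t) v) = ρ (X k t) (ρ (X l u) (ρ (wG (chevF4.commWord F k l t u)) v)) := by
    have h7 := congrArg (fun g => ρ g v) hr
    simpa only [map_mul, Module.End.mul_apply] using h7
  rw [hv k hk t, h5, map_smul, map_smul, map_smul] at h6
  have h7 : ψ c * ψ c = 1 := by rw [← AddChar.map_add_eq_mul, CharTwo.add_self_eq_zero, AddChar.map_zero_eq_one]
  rw [h k hk t, AddChar.map_add_eq_mul, mul_comm, mul_smul, h6, smul_smul, h7, one_smul]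

end rep

theorem mv41 : Mv 41 := by decide +kernel
theorem mv6 : Mv 6 := by decide +kernel
theorem mv17 : Mv 17 := by decide +kernel
theorem mv30 : Mv 30 := by decide +kernel
theorem mv22 : Mv 22 := by decide +kernel
theorem mv25 : Mv 25 := by decide +kernel
theorem mv33 : Mv 33 := by decide +kernel
theorem mv19 : Mv 19 := by decide +kernel

theorem tt41 : Z.map (fun k => chevF4.commTerms k 41) = [[], [(44, 1, 1, 1), (47, 1, 2, 1)], [], [], [], [], []] := by decide +kernel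

theorem tt6 : Z.map (fun k => chevF4.commTerms k 6) = [[], [], [(29, 1, 1, 1), (47, -1, 2, 1)], [], [], [], []] := by decide +kernel

theorem tt17 : Z.map (fun k => chevF4.commTerms k 17) = [[], [], [], [(36, -1, 1, 1), (47, 1, 2, 1)], [], [], []] := by decide +kernel

theorem tt30 : Z.map (fun k => chevF4.commTerms k 30) = [[], [], [], [], [(40, -1, 1, 1), (47, -1, 2, 1)], [], []] := by decide +kernel

theorem tt25 : Z.map (fun k => chevF4.commTerms k 25) = [[], [], [], [], [], [], [(39, -1, 1, 1), (47, 1, 2, 1)]] := by decide +kernel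

theorem tt22 : Z.map (fun k => chevF4.commTerms k 22) = [[], [], [], [], [], [(38, -1, 1, 1), (47, -1, 2, 1)], []] := by decide +kernel

theorem tt33 : Z.map (fun k => chevF4.commTerms k 33) = [[], [(36, 1, 1, 1)], [], [(44, -1, 1, 1)], [], [(43, -2, 1, 1)], [(42, -2, 1, 1)]] := by decide +kernel

theorem tt19 : Z.map (fun k => chevF4.commTerms k 19) = [[], [(24, 2, 1, 1)], [(42, 2, 1, 1)], [(38, 1, 1, 1)], [], [(36, -1, 1, 1)], []] := by decide +kernel

section steps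

variable {V : Type*} [AddCommGroup V] [Module ℂ V] {ρ : Representation ℂ ↥(chevF4.group F) V} {ψ : AddChar F ℂ} [CharP F 2]
  [Fintype F] [FiniteDimensional ℂ V]

theorem ne_of_move {l : ℕ} (hl : Mv l) (u : F) {p p' : P F} (h0 : U ρ ψ p ≠ ⊥)
    (h : ∀ k ∈ Z, ∀ t, ψ (wv p' k * t) = ψ (wv p k * t + ((chevF4.commWord F k l t u).map fun c => wv p c.1 * c.2).sum)) :
    U ρ ψ p' ≠ ⊥ := by
  obtain ⟨v, hv, hv0⟩ := Submodule.exists_mem_ne_zero_of_ne_bot h0
  intro h4
  have h5 := move hl u h hv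
  rw [h4, Submodule.mem_bot] at h5
  exact hv0 (Heis.rep_inj ρ _ h5)

theorem fin1 {γ : F} (hγ : ∀ t, ψ (t ^ 2) = ψ (γ * t)) (a b d t : F) :
    ψ ((a + b * d ^ 2 + γ * d) * t) = ψ (a * t + (b * (t * d ^ 2) + t ^ 2 * d ^ 2)) := by
  have h1 : (a + b * d ^ 2 + γ * d) * t = (a * t + b * (t * d ^ 2)) + γ * (t * d) := by ring
  have h2 : a * t + (b * (t * d ^ 2) + t ^ 2 * d ^ 2) = (a * t + b * (t * d ^ 2)) + (t * d) ^ 2 := by ring
  rw [h1, h2, AddChar.map_add_eq_mul, AddChar.map_add_eq_mul _ (a * t + b * (t * d ^ 2)) ((t * d) ^ 2), hγ]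

theorem fin2 (a b c t : F) : ψ ((a + b * c) * t) = ψ (a * t + b * (t * c)) := by
  congr 1
  ring

theorem step41 {γ : F} (hγ : ∀ t, ψ (t ^ 2) = ψ (γ * t)) {a b : F} {y z : F × F} (d : F)
    (h0 : U ρ ψ ((a, b), y, z) ≠ ⊥) : U ρ ψ ((a + b * d ^ 2 + γ * d, b), y, z) ≠ ⊥ := by
  refine ne_of_move mv41 (d ^ 2) h0 ?_
  have ht := tt41
  simp only [Z, List.map_cons, List.map_nil, List.cons.injEq, and_true] at ht
  obtain ⟨h1, h2, h3, h4, h5, h6, h7⟩ := ht
  intro k hk t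
  simp only [Z, List.mem_cons, List.not_mem_nil, or_false] at hk
  rcases hk with rfl | rfl | rfl | rfl | rfl | rfl | rfl <;>
    simp [ChevalleyDatum.commWord, h1, h2, h3, h4, h5, h6, h7, wv, CharTwo.neg_eq]
  · exact fin1 hγ _ _ _ _

theorem step6 {γ : F} (hγ : ∀ t, ψ (t ^ 2) = ψ (γ * t)) {a b : F} {y z : F × F} (d : F)
    (h0 : U ρ ψ ((a, b), y, z) ≠ ⊥) : U ρ ψ ((a, b + a * d ^ 2 + γ * d), y, z) ≠ ⊥ := by
  refine ne_of_move mv6 (d ^ 2) h0 ?_
  have ht := tt6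
  simp only [Z, List.map_cons, List.map_nil, List.cons.injEq, and_true] at ht
  obtain ⟨h1, h2, h3, h4, h5, h6, h7⟩ := ht
  intro k hk t
  simp only [Z, List.mem_cons, List.not_mem_nil, or_false] at hk
  rcases hk with rfl | rfl | rfl | rfl | rfl | rfl | rfl <;>
    simp [ChevalleyDatum.commWord, h1, h2, h3, h4, h5, h6, h7, wv, CharTwo.neg_eq]
  · exact fin1 hγ _ _ _ _

theorem step17 {γ : F} (hγ : ∀ t, ψ (t ^ 2) = ψ (γ * t)) {a b : F} {x z : F × F} (d : F)
    (h0 : U ρ ψ (x, (a, b), z) ≠ ⊥) : U ρ ψ (x, (a + b * d ^ 2 + γ * d, b), z) ≠ ⊥ := by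
  refine ne_of_move mv17 (d ^ 2) h0 ?_
  have ht := tt17
  simp only [Z, List.map_cons, List.map_nil, List.cons.injEq, and_true] at ht
  obtain ⟨h1, h2, h3, h4, h5, h6, h7⟩ := ht
  intro k hk t
  simp only [Z, List.mem_cons, List.not_mem_nil, or_false] at hk
  rcases hk with rfl | rfl | rfl | rfl | rfl | rfl | rfl <;>
    simp [ChevalleyDatum.commWord, h1, h2, h3, h4, h5, h6, h7, wv, CharTwo.neg_eq]
  · exact fin1 hγ _ _ _ _

theorem step30 {γ : F} (hγ : ∀ t, ψ (t ^ 2) = ψ (γ * t)) {a b : F} {x z : F × F} (d : F)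
    (h0 : U ρ ψ (x, (a, b), z) ≠ ⊥) : U ρ ψ (x, (a, b + a * d ^ 2 + γ * d), z) ≠ ⊥ := by
  refine ne_of_move mv30 (d ^ 2) h0 ?_
  have ht := tt30
  simp only [Z, List.map_cons, List.map_nil, List.cons.injEq, and_true] at ht
  obtain ⟨h1, h2, h3, h4, h5, h6, h7⟩ := ht
  intro k hk t
  simp only [Z, List.mem_cons, List.not_mem_nil, or_false] at hk
  rcases hk with rfl | rfl | rfl | rfl | rfl | rfl | rfl <;>
    simp [ChevalleyDatum.commWord, h1, h2, h3, h4, h5, h6, h7, wv, CharTwo.neg_eq]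
  · exact fin1 hγ _ _ _ _

theorem step22 {γ : F} (hγ : ∀ t, ψ (t ^ 2) = ψ (γ * t)) {a b : F} {x y : F × F} (d : F)
    (h0 : U ρ ψ (x, y, (a, b)) ≠ ⊥) : U ρ ψ (x, y, (a + b * d ^ 2 + γ * d, b)) ≠ ⊥ := by
  refine ne_of_move mv22 (d ^ 2) h0 ?_
  have ht := tt22
  simp only [Z, List.map_cons, List.map_nil, List.cons.injEq, and_true] at ht
  obtain ⟨h1, h2, h3, h4, h5, h6, h7⟩ := ht
  intro k hk t
  simp only [Z, List.mem_cons, List.not_mem_nil, or_false] at hk
  rcases hk with rfl | rfl | rfl | rfl | rfl | rfl | rfl <;>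
    simp [ChevalleyDatum.commWord, h1, h2, h3, h4, h5, h6, h7, wv, CharTwo.neg_eq]
  · exact fin1 hγ _ _ _ _

theorem step25 {γ : F} (hγ : ∀ t, ψ (t ^ 2) = ψ (γ * t)) {a b : F} {x y : F × F} (d : F)
    (h0 : U ρ ψ (x, y, (a, b)) ≠ ⊥) : U ρ ψ (x, y, (a, b + a * d ^ 2 + γ * d)) ≠ ⊥ := by
  refine ne_of_move mv25 (d ^ 2) h0 ?_
  have ht := tt25
  simp only [Z, List.map_cons, List.map_nil, List.cons.injEq, and_true] at ht
  obtain ⟨h1, h2, h3, h4, h5, h6, h7⟩ := ht
  intro k hk t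
  simp only [Z, List.mem_cons, List.not_mem_nil, or_false] at hk
  rcases hk with rfl | rfl | rfl | rfl | rfl | rfl | rfl <;>
    simp [ChevalleyDatum.commWord, h1, h2, h3, h4, h5, h6, h7, wv, CharTwo.neg_eq]
  · exact fin1 hγ _ _ _ _

theorem step33 {a b a' b' : F} {z : F × F} (c : F)
    (h0 : U ρ ψ ((a, b), (a', b'), z) ≠ ⊥) : U ρ ψ ((a + b' * c, b), (a' + b * c, b'), z) ≠ ⊥ := by
  refine ne_of_move mv33 c h0 ?_
  have ht := tt33
  simp only [Z, List.map_cons, List.map_nil, List.cons.injEq, and_true] at ht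
  obtain ⟨h1, h2, h3, h4, h5, h6, h7⟩ := ht
  intro k hk t
  simp only [Z, List.mem_cons, List.not_mem_nil, or_false] at hk
  rcases hk with rfl | rfl | rfl | rfl | rfl | rfl | rfl <;>
    simp [ChevalleyDatum.commWord, h1, h2, h3, h4, h5, h6, h7, wv, CharTwo.neg_eq, CharTwo.two_eq_zero]
  · exact fin2 _ _ _ _
  · exact fin2 _ _ _ _

theorem step19 {a b a' b' : F} {x : F × F} (c : F)
    (h0 : U ρ ψ (x, (a, b), (a', b')) ≠ ⊥) : U ρ ψ (x, (a + b' * c, b), (a' + b * c, b')) ≠ ⊥ := by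
  refine ne_of_move mv19 c h0 ?_
  have ht := tt19
  simp only [Z, List.map_cons, List.map_nil, List.cons.injEq, and_true] at ht
  obtain ⟨h1, h2, h3, h4, h5, h6, h7⟩ := ht
  intro k hk t
  simp only [Z, List.mem_cons, List.not_mem_nil, or_false] at hk
  rcases hk with rfl | rfl | rfl | rfl | rfl | rfl | rfl <;>
    simp [ChevalleyDatum.commWord, h1, h2, h3, h4, h5, h6, h7, wv, CharTwo.neg_eq, CharTwo.two_eq_zero]
  · exact fin2 _ _ _ _
  · exact fin2 _ _ _ _

theorem closed {γ : F} (hγ : ∀ t, ψ (t ^ 2) = ψ (γ * t)) : Closed γ (fun p => U ρ ψ p ≠ ⊥) where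
  p1 _ _ _ _ d h := step41 hγ d h
  m1 _ _ _ _ d h := step6 hγ d h
  p2 _ _ _ _ d h := step17 hγ d h
  m2 _ _ _ _ d h := step30 hγ d h
  p3 _ _ _ _ d h := step22 hγ d h
  m3 _ _ _ _ d h := step25 hγ d h
  r12 _ _ _ _ _ c h := step33 c h
  r23 _ _ _ _ _ c h := step19 c h

/-- the weight spaces have dimension at least `q ^ 4` -/
theorem four_U (hψ : ψ ≠ 0) {p : P F} (h0 : U ρ ψ p ≠ ⊥) : Fintype.card F ^ 4 ≤ finrank ℂ (U ρ ψ p : Submodule ℂ V) := by
  refine four (ρ := ρ) hψ _ h0 (fun v hv a => ?_) fun r hr a v hv k hk t => ?_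
  · have h := hv 47 (by decide) a
    rwa [show wv p 47 = 1 from rfl, one_mul] at h
  · show ρ (X k t) (ρ (X r a) v) = _
    rw [app_mul (nilc (chkL r hr k hk) t a), hv k hk t, map_smul]

/-! ### the abelian group of the six short root groups -/

/-- the product of the six root elements -/
noncomputable def A (x : P F) : ↥(chevF4.group F) :=
  (X 29 x.1.1 * X 44 x.1.2) * ((X 40 x.2.1.1 * X 36 x.2.1.2) * (X 39 x.2.2.1 * X 38 x.2.2.2))

theorem cz {r s : ℕ} (hr : r ∈ Z) (hs : s ∈ Z) (t u : F) : Commute (X r t) (X s u) := commZ hr hs t u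

theorem A_zero : A (0 : P F) = 1 := by
  simp only [A, Prod.fst_zero, Prod.snd_zero, X_zero, mul_one]

theorem A_add (x y : P F) : A (x + y) = A x * A y := by
  have h1 : ∀ {r s : ℕ}, r ∈ Z → s ∈ Z → ∀ a b a' b' : F, X r (a + a') * X s (b + b') =
      (X r a * X s b) * (X r a' * X s b') := by
    intro r s hr hs a b a' b'
    rw [X_add, X_add]
    exact (cz hr hs a' b).mul_mul_mul_comm _ _
  have m29 : 29 ∈ Z := by decide
  have m44 : 44 ∈ Z := by decide
  have m40 : 40 ∈ Z := by decide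
  have m36 : 36 ∈ Z := by decide
  have m39 : 39 ∈ Z := by decide
  have m38 : 38 ∈ Z := by decide
  simp only [A, Prod.fst_add, Prod.snd_add]
  rw [h1 m29 m44, h1 m40 m36, h1 m39 m38]
  have c1 : Commute (X 40 y.2.1.1 * X 36 y.2.1.2) (X 39 x.2.2.1 * X 38 x.2.2.2) :=
    ((cz m40 m39 _ _).mul_right (cz m40 m38 _ _)).mul_left ((cz m36 m39 _ _).mul_right (cz m36 m38 _ _))
  rw [c1.mul_mul_mul_comm]
  have c2 : Commute (X 29 y.1.1 * X 44 y.1.2) ((X 40 x.2.1.1 * X 36 x.2.1.2) * (X 39 x.2.2.1 * X 38 x.2.2.2)) :=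
    (((cz m29 m40 _ _).mul_right (cz m29 m36 _ _)).mul_right ((cz m29 m39 _ _).mul_right (cz m29 m38 _ _))).mul_left
      (((cz m44 m40 _ _).mul_right (cz m44 m36 _ _)).mul_right ((cz m44 m39 _ _).mul_right (cz m44 m38 _ _)))
  rw [c2.mul_mul_mul_comm]

theorem A_wtr {v : V} (hv : v ∈ wtr ρ 47 ψ) (x : P F) : ρ (A x) v ∈ wtr ρ 47 ψ := by
  have m47 : 47 ∈ Z := by decide
  intro a
  show ρ (X 47 a) (ρ (A x) v) = _
  have c : X 47 a * A x = A x * X 47 a :=
    ((cz m47 (by decide) a _).mul_right (cz m47 (by decide) a _)).mul_right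
      (((cz m47 (by decide) a _).mul_right (cz m47 (by decide) a _)).mul_right
        ((cz m47 (by decide) a _).mul_right (cz m47 (by decide) a _)))
  rw [app_mul c, mem_wtr.1 hv a, map_smul]

variable (ρ ψ) in
/-- the action on the weight space -/
noncomputable def T : AddAct (P F) (wtr ρ 47 ψ : Submodule ℂ V) where
  toFun x := (ρ (A x)).restrict (fun v hv => A_wtr hv x)
  map_zero' := by
    ext v
    show ρ (A 0) (v : V) = v
    rw [A_zero, map_one]; rfl
  map_add' x y := by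
    ext v
    show ρ (A (x + y)) (v : V) = ρ (A x) (ρ (A y) (v : V))
    rw [A_add, map_mul]; rfl

variable (ψ) in
/-- the characters -/
def χ (p : P F) : AddChar (P F) ℂ where
  toFun x := ψ (p.1.1 * x.1.1 + p.1.2 * x.1.2 + (p.2.1.1 * x.2.1.1 + p.2.1.2 * x.2.1.2 +
    (p.2.2.1 * x.2.2.1 + p.2.2.2 * x.2.2.2)))
  map_zero_eq_one' := by simp
  map_add_eq_mul' x y := by
    rw [← AddChar.map_add_eq_mul]
    congr 1
    simp only [Prod.fst_add, Prod.snd_add]
    ring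

theorem χ_inj (hψ : ψ ≠ 0) : Function.Injective (χ ψ) := by
  have key : ∀ a b : F, (∀ t, ψ (a * t) = ψ (b * t)) → a = b := by
    intro a b h
    refine AddChar.to_mulShift_inj_of_isPrimitive (AddChar.IsPrimitive.of_ne_one hψ) ?_
    ext t
    rw [AddChar.mulShift_apply, AddChar.mulShift_apply]
    exact h t
  intro p p' h
  have h1 : ∀ x : P F, χ ψ p x = χ ψ p' x := fun x => by rw [h]
  have e : ∀ (p x : P F), χ ψ p x = ψ (p.1.1 * x.1.1 + p.1.2 * x.1.2 + (p.2.1.1 * x.2.1.1 + p.2.1.2 * x.2.1.2 +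
    (p.2.2.1 * x.2.2.1 + p.2.2.2 * x.2.2.2))) := fun _ _ => rfl
  simp only [e] at h1
  refine Prod.ext (Prod.ext ?_ ?_) (Prod.ext (Prod.ext ?_ ?_) (Prod.ext ?_ ?_))
  · exact key _ _ fun t => by simpa using h1 ((t, 0), (0, 0), (0, 0))
  · exact key _ _ fun t => by simpa using h1 ((0, t), (0, 0), (0, 0))
  · exact key _ _ fun t => by simpa using h1 ((0, 0), (t, 0), (0, 0))
  · exact key _ _ fun t => by simpa using h1 ((0, 0), (0, t), (0, 0))
  · exact key _ _ fun t => by simpa using h1 ((0, 0), (0, 0), (t, 0))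
  · exact key _ _ fun t => by simpa using h1 ((0, 0), (0, 0), (0, t))

theorem mem_T {p : P F} {v : (wtr ρ 47 ψ : Submodule ℂ V)} : v ∈ (T ρ ψ).wt (χ ψ p) ↔ (v : V) ∈ U ρ ψ p := by
  constructor
  · intro h
    have h1 : ∀ x : P F, ρ (A x) (v : V) = χ ψ p x • (v : V) := fun x => congrArg Subtype.val (h x)
    have e : ∀ (x : P F), χ ψ p x = ψ (p.1.1 * x.1.1 + p.1.2 * x.1.2 + (p.2.1.1 * x.2.1.1 + p.2.1.2 * x.2.1.2 +
      (p.2.2.1 * x.2.2.1 + p.2.2.2 * x.2.2.2))) := fun _ => rfl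
    simp only [e, A] at h1
    intro k hk t
    simp only [Z, List.mem_cons, List.not_mem_nil, or_false] at hk
    rcases hk with rfl | rfl | rfl | rfl | rfl | rfl | rfl
    · rw [show wv p 47 = 1 from rfl, one_mul]
      exact v.2 t
    · simpa [X_zero, wv] using h1 ((t, 0), (0, 0), (0, 0))
    · simpa [X_zero, wv] using h1 ((0, t), (0, 0), (0, 0))
    · simpa [X_zero, wv] using h1 ((0, 0), (t, 0), (0, 0))
    · simpa [X_zero, wv] using h1 ((0, 0), (0, t), (0, 0))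
    · simpa [X_zero, wv] using h1 ((0, 0), (0, 0), (t, 0))
    · simpa [X_zero, wv] using h1 ((0, 0), (0, 0), (0, t))
  · intro h x
    apply Subtype.ext
    show ρ (A x) (v : V) = χ ψ p x • (v : V)
    have m29 := h 29 (by decide)
    have m44 := h 44 (by decide)
    have m40 := h 40 (by decide)
    have m36 := h 36 (by decide)
    have m39 := h 39 (by decide)
    have m38 := h 38 (by decide)
    simp only [A, map_mul, Module.End.mul_apply, m29, m44, m40, m36, m39, m38, map_smul, smul_smul]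
    congr 1
    show _ = ψ (p.1.1 * x.1.1 + p.1.2 * x.1.2 + (p.2.1.1 * x.2.1.1 + p.2.1.2 * x.2.1.2 +
      (p.2.2.1 * x.2.2.1 + p.2.2.2 * x.2.2.2)))
    simp only [AddChar.map_add_eq_mul]
    show _ = ψ (wv p 29 * x.1.1) * ψ (wv p 44 * x.1.2) * (ψ (wv p 40 * x.2.1.1) * ψ (wv p 36 * x.2.1.2) *
      (ψ (wv p 39 * x.2.2.1) * ψ (wv p 38 * x.2.2.2)))
    ring

theorem finrank_T (p : P F) : finrank ℂ ((T ρ ψ).wt (χ ψ p)) = finrank ℂ (U ρ ψ p : Submodule ℂ V) := by
  have h1 : (T ρ ψ).wt (χ ψ p) = (U ρ ψ p).comap (wtr ρ 47 ψ : Submodule ℂ V).subtype := by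
    ext v
    exact mem_T
  have hle : (U ρ ψ p : Submodule ℂ V) ≤ wtr ρ 47 ψ := fun v hv a => by
    have h := hv 47 (by decide) a
    rwa [show wv p 47 = 1 from rfl, one_mul] at h
  rw [h1]
  have h2 : finrank ℂ ((U ρ ψ p).comap (wtr ρ 47 ψ : Submodule ℂ V).subtype) =
      finrank ℂ (((U ρ ψ p).comap (wtr ρ 47 ψ : Submodule ℂ V).subtype).map (wtr ρ 47 ψ : Submodule ℂ V).subtype) :=
    (LinearEquiv.finrank_eq (Submodule.equivMapOfInjective _ (Submodule.injective_subtype _) _))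
  rw [h2, Submodule.map_comap_subtype, inf_eq_right.2 hle]

open scoped Classical in
/-- **the weight space, characteristic 2** -/
theorem ten_even (hψ : ψ ≠ 0) (h0 : wtr ρ 47 ψ ≠ ⊥) :
    Fintype.card F ^ 4 * (Fintype.card F ^ 6 - Fintype.card F ^ 3) ≤ 2 * finrank ℂ (wtr ρ 47 ψ : Submodule ℂ V) := by
  obtain ⟨γ, hγ0, hγ⟩ := exists_gamma hψ
  have hbij : Function.Bijective (χ ψ) := by
    rw [Fintype.bijective_iff_injective_and_card]
    exact ⟨χ_inj hψ, AddChar.card_eq.symm⟩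
  have hsum : finrank ℂ (wtr ρ 47 ψ : Submodule ℂ V) = ∑ p : P F, finrank ℂ (U ρ ψ p : Submodule ℂ V) := by
    rw [(T ρ ψ).sum_finrank_wt]
    exact (Fintype.sum_bijective (χ ψ) hbij _ _ fun p => (finrank_T p).symm).symm
  have hex : ∃ p : P F, U ρ ψ p ≠ ⊥ := by
    by_contra hc
    push Not at hc
    rw [Finset.sum_eq_zero (fun p _ => by rw [hc p, finrank_bot])] at hsum
    exact h0 (Submodule.finrank_eq_zero.1 hsum)
  obtain ⟨p, hp⟩ := hex
  have hc : Fintype.card F ^ 6 ≤ 2 * (Finset.univ.filter fun p : P F => U ρ ψ p ≠ ⊥).card + Fintype.card F ^ 3 := by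
    convert card_closed hψ hγ0 hγ (closed (ρ := ρ) (ψ := ψ) hγ) hp
  have hle : (Finset.univ.filter fun p : P F => U ρ ψ p ≠ ⊥).card * Fintype.card F ^ 4 ≤
      finrank ℂ (wtr ρ 47 ψ : Submodule ℂ V) := by
    rw [hsum, ← smul_eq_mul, ← Finset.sum_const]
    refine (Finset.sum_le_sum fun p hp => ?_).trans (Finset.sum_le_sum_of_subset (Finset.filter_subset _ _))
    exact four_U hψ (Finset.mem_filter.1 hp).2
  calc Fintype.card F ^ 4 * (Fintype.card F ^ 6 - Fintype.card F ^ 3)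
      ≤ Fintype.card F ^ 4 * (2 * (Finset.univ.filter fun p : P F => U ρ ψ p ≠ ⊥).card) :=
        Nat.mul_le_mul_left _ (by omega)
    _ = 2 * ((Finset.univ.filter fun p : P F => U ρ ψ p ≠ ⊥).card * Fintype.card F ^ 4) := by ring
    _ ≤ _ := Nat.mul_le_mul_left _ hle

end steps

section odd

variable {V : Type*} [AddCommGroup V] [Module ℂ V] {ρ : Representation ℂ ↥(chevF4.group F) V} [Fintype F]
  [FiniteDimensional ℂ V]

theorem chk7 : ChevHeis.chkH chevF4 47 [(24, 46, 1), (26, 45, 1), (31, 43, -1), (32, 42, 1), (29, 44, 2), (36, 40, 2),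
    (38, 39, -2)] = true := by decide +kernel

/-- **the weight space, odd characteristic** -/
theorem seven_odd (h2 : (2 : F) ≠ 0) {ψ : AddChar F ℂ} (hψ : ψ ≠ 0) (h0 : wtr ρ 47 ψ ≠ ⊥) :
    Fintype.card F ^ 7 ≤ finrank ℂ (wtr ρ 47 ψ : Submodule ℂ V) := by
  have H := hd' (F := F) hF4 chk7 (by
    intro p hp
    simp only [List.mem_cons, List.not_mem_nil, or_false] at hp
    rcases hp with rfl | rfl | rfl | rfl | rfl | rfl | rfl <;> simp [h2])
  refine Heis.bound_aux ρ H hψ 7 le_rfl (wtr ρ 47 ψ) h0 (fun v hv a => hv a) ?_ ?_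
  · intro i hi a v hv
    exact wtr_comm hv a fun b => H.zx i hi b a
  · intro i hi a v hv
    exact wtr_comm hv a fun b => H.zy i hi b a

end odd

/-- the bound for the degree from the bound for the weight space -/
theorem minDeg_of (F : Type u) [Field F] [Fintype F] (B : ℕ)
    (hB : ∀ (M : Type) [AddCommGroup M] [Module ℂ M] [FiniteDimensional ℂ M] (ρ : Representation ℂ ↥(chevF4.group F) M)
      (φ : AddChar F ℂ), φ ≠ 0 → wtr ρ 47 φ ≠ ⊥ → B ≤ finrank ℂ (wtr ρ 47 φ : Submodule ℂ M)) :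
    ∀ (k : ℕ) (ρ : Representation ℂ ↥(chevF4.group F) (Fin k → ℂ)), ρ.IsIrreducible → 2 ≤ k →
      (Fintype.card F ^ 2 - 1) * B ≤ Fintype.card F * k := by
  classical
  have hsimp : IsSimpleGroup ↥(chevF4.group F) := (Cfsg.Agent.S1054.result chevF4 (by simp)).1
  intro k ρ hirr hk
  have hρ := Cfsg.Agent.H121.Chr.exists_ne_one ρ hirr hk
  have H := Cfsg.Agent.H120.CycExc.FFour.sys4 ρ
  have hX : ∀ a : F, Cfsg.Agent.H120.CycExc.FFour.XF (Cfsg.Agent.H120.CycExc.FFour.fVec 23) a = X 47 a := fun a => by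
    apply Subtype.ext
    show xG hF4 (Cfsg.Agent.H120.CycExc.FFour.ix (Cfsg.Agent.H120.CycExc.FFour.fVec 23)) a = xG hF4 47 a
    rw [Cfsg.Agent.H120.CycExc.FFour.ix_vec]
    rfl
  have hne : ∃ a, X 47 a ≠ (1 : ↥(chevF4.group F)) := ⟨1, fun h => one_ne_zero
    ((xG_eq_one_iff hF4 (by decide +kernel : 47 < chevF4.nroots) (1 : F)).1 (congrArg Subtype.val h))⟩
  obtain ⟨a, ha⟩ := hne
  have h1 : ρ (X 47 a) ≠ 1 := Cfsg.Agent.H121.Chr.faithful ρ hρ ha
  have hr : Cfsg.Agent.H120.CycExc.FFour.fVec 23 ∈ Cfsg.Agent.H120.CycExc.FFour.Phi4 := ⟨23, rfl⟩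
  have h2 : ∃ a v, (H.act hr).toFun a v ≠ v := by
    by_contra hc
    push Not at hc
    apply h1
    refine LinearMap.ext fun v => ?_
    have := hc a v
    rw [← hX]
    exact this
  obtain ⟨φ, hφ, h3⟩ := AddAct.exists_wt_ne _ h2
  have hwt : wt (fun v (a : F) => ρ (Cfsg.Agent.H120.CycExc.FFour.XF v a)) (Cfsg.Agent.H120.CycExc.FFour.fVec 23) φ =
      wtr ρ 47 φ := by
    ext v
    constructor
    · intro h b
      have := h b
      simp only [hX] at this
      exact this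
    · intro h b
      have := h b
      simp only [hX]
      exact this
  have h3' : wtr ρ 47 φ ≠ ⊥ := by
    rw [← hwt]
    exact h3
  have h4 := hB _ ρ φ hφ h3'
  have hs : Cfsg.Agent.H120.CycExc.FFour.fVec 22 ∈ Cfsg.Agent.H120.CycExc.FFour.Phi4 := ⟨22, rfl⟩
  have h7 := H.bound_two Cfsg.Agent.H120.CycExc.FFour.roots hr hs (by decide +kernel) hφ
  rw [hwt, finrank_fin_fun] at h7
  exact le_trans (Nat.mul_le_mul_left _ h4) h7

/-- **`F₄(q)`, `q` odd**: `q ^ 6 (q ^ 2 - 1)` -/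
theorem f4_odd (F : Type u) [Field F] [Fintype F] (h2 : (2 : F) ≠ 0) :
    H514.DP.MinDeg ↥(chevF4.group F) (Fintype.card F ^ 6 * (Fintype.card F ^ 2 - 1)) := by
  intro k ρ hρ hk
  have h := minDeg_of F (Fintype.card F ^ 7) (fun M _ _ _ ρ φ hφ h0 => seven_odd h2 hφ h0) k ρ hρ hk
  refine Nat.le_of_mul_le_mul_left (c := Fintype.card F) ?_ Fintype.card_pos
  refine le_trans (le_of_eq ?_) h
  ring

/-- **`F₄(q)`, `q` even**: `q ^ 6 (q ^ 2 - 1) (q ^ 3 - 1) / 2` -/
theorem f4_even (F : Type u) [Field F] [Fintype F] (h2 : (2 : F) = 0) :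
    H514.DP.MinDeg ↥(chevF4.group F) (Fintype.card F ^ 6 * (Fintype.card F ^ 2 - 1) * (Fintype.card F ^ 3 - 1) / 2) := by
  have : CharP F 2 := CharTwo.of_one_ne_zero_of_two_eq_zero (one_ne_zero (α := F)) h2
  intro k ρ hρ hk
  have h := minDeg_of F (Fintype.card F ^ 7 * (Fintype.card F ^ 3 - 1) / 2) (fun M _ _ _ ρ φ hφ h0 => by
    have h1 := ten_even (ρ := ρ) hφ h0
    have e : Fintype.card F ^ 4 * (Fintype.card F ^ 6 - Fintype.card F ^ 3) =
        Fintype.card F ^ 7 * (Fintype.card F ^ 3 - 1) := by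
      rw [Nat.mul_sub, Nat.mul_sub]
      ring_nf
    rw [e] at h1
    omega) k ρ hρ hk
  -- `2` divides `q`
  obtain ⟨m, hm⟩ : 2 ∣ Fintype.card F := by
    have h3 : ((Fintype.card F : ℕ) : F) = 0 := Nat.cast_card_eq_zero F
    exact (CharP.cast_eq_zero_iff F 2 _).1 h3
  have e1 : Fintype.card F ^ 7 * (Fintype.card F ^ 3 - 1) / 2 = m * Fintype.card F ^ 6 * (Fintype.card F ^ 3 - 1) := by
    have : Fintype.card F ^ 7 * (Fintype.card F ^ 3 - 1) = 2 * (m * Fintype.card F ^ 6 * (Fintype.card F ^ 3 - 1)) := by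
      calc Fintype.card F ^ 7 * (Fintype.card F ^ 3 - 1) = Fintype.card F * (Fintype.card F ^ 6 * (Fintype.card F ^ 3 - 1)) := by ring
        _ = 2 * m * (Fintype.card F ^ 6 * (Fintype.card F ^ 3 - 1)) := by rw [← hm]
        _ = _ := by ring
    rw [this, Nat.mul_div_cancel_left _ (by norm_num)]
  rw [e1] at h
  refine Nat.div_le_of_le_mul ?_
  refine Nat.le_of_mul_le_mul_left (c := Fintype.card F) ?_ Fintype.card_pos
  calc Fintype.card F * (Fintype.card F ^ 6 * (Fintype.card F ^ 2 - 1) * (Fintype.card F ^ 3 - 1))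
      = 2 * ((Fintype.card F ^ 2 - 1) * (m * Fintype.card F ^ 6 * (Fintype.card F ^ 3 - 1))) := by
        calc Fintype.card F * (Fintype.card F ^ 6 * (Fintype.card F ^ 2 - 1) * (Fintype.card F ^ 3 - 1))
            = 2 * m * (Fintype.card F ^ 6 * (Fintype.card F ^ 2 - 1) * (Fintype.card F ^ 3 - 1)) := by rw [← hm]
          _ = _ := by ring
    _ ≤ 2 * (Fintype.card F * k) := Nat.mul_le_mul_left _ h
    _ = _ := by ring

end Cfsg.Agent.H808.MD.F4
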